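import Cfsg.Agent.H477.HC.Siegel

/-!
# The number of totally singular subspaces modulo the characteristic (task 4724, S4891; helper898)

`omk` : `F : CForm K V`, `K` finite of odd characteristic `p`: if there are totally singular subspaces of dimension `k`
then `p` does not divide their number.

The group `UU W₀` of the isometries trivial on `W₀`, `W₀ᗮ / W₀` (and `V / W₀ᗮ`) is a `p`-group. If there are `t ≠ 0` and
`y ∈ W₀ᗮ` with `σ t + B(y,y) + t ε = 0`, `Q y + T (σ t) = 0`, then `W₀` is its unique fixed point; otherwise `W₀ᗮ = W₀`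
and `UU D`, `D` a hyperplane of `W₀`, has exactly two fixed points.
-/

set_option autoImplicit false

namespace Cfsg.Agent.H898.OC

open Module Cfsg.Agent.H53.HC Cfsg.Agent.H477.HC Cfsg.Agent.H477.HC.CForm

universe u v

variable {K : Type u} [Field K] {V : Type v} [AddCommGroup V] [Module K V] (F : CForm K V)

theorem exists_partner {c : V} (hc : F.Sing c) {X : Submodule K V} (hcX : c ∈ X) {z : V} (hz : z ∈ X)
    (hcz : F.B c z ≠ 0) : ∃ f ∈ X, F.Sing f ∧ F.B c f = 1 := by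
  obtain ⟨z', hz', h1⟩ : ∃ z' ∈ X, F.B c z' = 1 :=
    ⟨F.σ ((F.B c z)⁻¹) • z, X.smul_mem _ hz, by rw [F.B_smul_right, F.σσ, inv_mul_cancel₀ hcz]⟩
  obtain ⟨t0, ht0⟩ := F.Q_range z'
  have hzc : F.B z' c = F.ε := by rw [F.B_symm, h1, map_one, mul_one]
  have hQ : F.Q (z' + F.σ (t0 * F.ε⁻¹) • c) = 0 := by
    rw [F.Q_add, F.Q_smul, hc.1, F.B_smul_right, F.σσ, hzc, inv_mul_cancel_right₀ F.ε_ne, ht0]
    ring
  refine ⟨z' + F.σ (t0 * F.ε⁻¹) • c, X.add_mem hz' (X.smul_mem _ hcX), ⟨hQ, F.alt _ hQ⟩, ?_⟩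
  rw [F.B_add_right, F.B_smul_right, hc.2, mul_zero, add_zero, h1]

theorem exists_ne_B {c : V} (hc0 : c ≠ 0) : ∃ z, F.B c z ≠ 0 := by
  by_contra h
  push Not at h
  exact hc0 (F.nondeg c h)

theorem exists_t {c : V} (hc0 : c ≠ 0) (hc : F.Sing c) {y : V} (hy : F.B y c = 0) :
    ∃ t, F.σ t + F.B y y + t * F.ε = 0 ∧ F.Q y + F.T (F.σ t) = 0 := by
  obtain ⟨z, hz⟩ := exists_ne_B F hc0
  obtain ⟨f, -, hf, hcf⟩ := exists_partner F hc (X := ⊤) Submodule.mem_top Submodule.mem_top hz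
  have hfc : F.B f c = F.ε := by rw [F.B_symm, hcf, map_one, mul_one]
  have hcy := F.B_eq_zero hy
  obtain ⟨y0, hy0⟩ : ∃ y0, y0 = y + (-F.B y f) • c := ⟨_, rfl⟩
  have e1 : F.B y0 f = 0 := by
    rw [hy0, F.B_add_left, F.B_smul_left, hcf, mul_one, add_neg_cancel]
  have e1' := F.B_eq_zero e1
  have e2 : F.B y0 c = 0 := by
    rw [hy0, F.B_add_left, F.B_smul_left, hc.2, mul_zero, add_zero, hy]
  have e2' := F.B_eq_zero e2
  have e3 : F.B y0 y0 = F.B y y := by
    rw [hy0, F.B_add_left, F.B_add_right, F.B_smul_left, F.B_smul_right, F.B_add_right, F.B_smul_right, hy, hcy, hc.2]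
    ring
  have e4 : F.Q y0 = F.Q y := by
    rw [hy0, F.Q_add, F.Q_smul, hc.1, F.B_smul_right, hy, mul_zero, mul_zero, F.T_zero, add_zero, add_zero]
  obtain ⟨s, hs⟩ := F.Q_range y0
  have hQ : F.Q (s • c + (f + y0)) = 0 := by
    rw [F.Q_add, F.Q_add f, F.Q_smul, hc.1, hf.1, e1', F.T_zero, F.B_smul_left, F.B_add_right, hcf, e2',
      show s * (1 + 0 : K) = s by ring, hs]
    ring
  have hB := F.alt _ hQ
  rw [F.B_add_left, F.B_smul_left, F.B_add_right c, F.B_smul_right, F.B_add_right c, F.B_add_left f,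
    F.B_add_right f, F.B_smul_right, F.B_add_right f, F.B_add_right y0, F.B_smul_right, F.B_add_right y0, hc.2, hcf, e2',
    hfc, hf.2, e1', e1, e2, e3] at hB
  refine ⟨F.σ s, ?_, ?_⟩
  · rw [F.σσ]
    linear_combination hB
  · rw [F.σσ, hs, e4, add_neg_cancel]

/-- the isometries trivial on `W` and on `Wᗮ / W` -/
def UU (W : Submodule K V) : Subgroup F.iso where
  carrier := {g | (∀ w ∈ W, (g : V ≃ₗ[K] V) w = w) ∧ ∀ v ∈ F.perp W, (g : V ≃ₗ[K] V) v - v ∈ W}
  one_mem' := ⟨fun _ _ => rfl, fun v _ => by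
    change v - v ∈ W
    rw [sub_self]; exact W.zero_mem⟩
  mul_mem' := by
    rintro g h ⟨hg, hg'⟩ ⟨hh, hh'⟩
    refine ⟨fun w hw => ?_, fun v hv => ?_⟩
    · rw [Subgroup.coe_mul, LinearEquiv.mul_apply, hh w hw, hg w hw]
    · have e : ((g * h : F.iso) : V ≃ₗ[K] V) v - v = (g : V ≃ₗ[K] V) ((h : V ≃ₗ[K] V) v - v) +
          ((g : V ≃ₗ[K] V) v - v) := by
        rw [Subgroup.coe_mul, LinearEquiv.mul_apply, map_sub]; abel
      rw [e, hg _ (hh' v hv)]
      exact W.add_mem (hh' v hv) (hg' v hv)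
  inv_mem' := by
    rintro g ⟨hg, hg'⟩
    have key : ∀ v, ((g⁻¹ : F.iso) : V ≃ₗ[K] V) ((g : V ≃ₗ[K] V) v) = v := (g : V ≃ₗ[K] V).symm_apply_apply
    have hi : ∀ w ∈ W, ((g⁻¹ : F.iso) : V ≃ₗ[K] V) w = w := fun w hw => by
      conv_lhs => rw [← hg w hw]
      exact key w
    refine ⟨hi, fun v hv => ?_⟩
    have h2 : ((g⁻¹ : F.iso) : V ≃ₗ[K] V) v - v = -((g⁻¹ : F.iso) : V ≃ₗ[K] V) ((g : V ≃ₗ[K] V) v - v) := by
      rw [map_sub, key]
      abel
    rw [h2, hi _ (hg' v hv)]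
    exact W.neg_mem (hg' v hv)

theorem mem_UU {W : Submodule K V} {g : F.iso} : g ∈ UU F W ↔
    (∀ w ∈ W, (g : V ≃ₗ[K] V) w = w) ∧ ∀ v ∈ F.perp W, (g : V ≃ₗ[K] V) v - v ∈ W := Iff.rfl

open Polynomial in
theorem isPGroup_UU (W : Submodule K V) {p : ℕ} [hp : Fact p.Prime] [CharP K p] : IsPGroup p (UU F W) := by
  rintro ⟨g, hg, hg'⟩
  refine ⟨2, Subtype.ext (Subtype.ext (LinearEquiv.ext fun v => ?_))⟩
  let a : Module.End K V := ((g : V ≃ₗ[K] V) : V →ₗ[K] V)
  have ha : ∀ (n : ℕ) (v : V), (((g ^ n : F.iso)) : V ≃ₗ[K] V) v = (a ^ n) v := by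
    intro n
    induction n with
    | zero => intro v; rfl
    | succ n ih =>
      intro v
      rw [pow_succ, pow_succ, Module.End.mul_apply, Subgroup.coe_mul, LinearEquiv.mul_apply, ih]
      rfl
  have h1 : ∀ v, (a - 1) v ∈ F.perp W := by
    intro v w hw
    change F.B ((g : V ≃ₗ[K] V) v - v) w = 0
    rw [F.B_sub_left]
    have h := F.iso_B g v w
    rw [hg w hw] at h
    rw [h, sub_self]
  have h2 : (a - 1) ^ 3 = 0 := by
    refine LinearMap.ext fun v => ?_
    rw [pow_succ, pow_succ, pow_one, Module.End.mul_apply, Module.End.mul_apply]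
    have h3 : (a - 1) ((a - 1) v) ∈ W := hg' _ (h1 v)
    change (g : V ≃ₗ[K] V) ((a - 1) ((a - 1) v)) - (a - 1) ((a - 1) v) = 0
    rw [hg _ h3, sub_self]
  have h3 : (X - 1 : K[X]) ^ p ^ 2 = X ^ p ^ 2 - 1 := by
    rw [sub_pow_char_pow, one_pow]
  have h4 : a ^ p ^ 2 - 1 = 0 := by
    have h5 := congrArg (aeval a) h3
    rw [map_pow, map_sub, map_sub, map_pow, aeval_X, map_one] at h5
    rw [← h5]
    obtain ⟨m, hm⟩ := Nat.exists_eq_add_of_le (show 3 ≤ p ^ 2 by
      have := Nat.pow_le_pow_left hp.out.two_le 2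
      omega)
    rw [hm, pow_add, h2, zero_mul]
  change (((g ^ p ^ 2 : F.iso)) : V ≃ₗ[K] V) v = v
  rw [ha, sub_eq_zero.1 h4]
  rfl

/-- the Siegel elements of `UU W` -/
theorem exists_mem_UU [FiniteDimensional K V] {W : Submodule K V} (hW : F.TS W) {c : V} (hc : c ∈ W) (hc0 : c ≠ 0)
    {y : V} (hy : y ∈ F.perp W) {t : K} (h1 : F.σ t + F.B y y + t * F.ε = 0) (h2 : F.Q y + F.T (F.σ t) = 0) :
    ∃ g ∈ UU F W, ∀ v, (g : V ≃ₗ[K] V) v = v + F.B v c • y + (t * F.B v c - F.ε⁻¹ * F.B v y) • c := by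
  have hcs := hW.sing hc
  obtain ⟨z, hz⟩ := exists_ne_B F hc0
  obtain ⟨f, -, hf, hcf⟩ := exists_partner F hcs (X := ⊤) Submodule.mem_top Submodule.mem_top hz
  obtain ⟨g, hg⟩ := F.exists_siegel hcs hf hcf (hy c hc) h1 h2
  refine ⟨g, ⟨fun w hw => ?_, fun v hv => ?_⟩, hg⟩
  · rw [hg, hW.2 w hw c hc, F.B_eq_zero (hy w hw), mul_zero, mul_zero, zero_smul, sub_zero, zero_smul, add_zero, add_zero]
  · rw [hg, hv c hc, zero_smul, add_zero, add_sub_cancel_left]
    exact W.smul_mem _ hc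

/-- `W` is invariant under `UU W₀` -/
def Fixed (W₀ W : Submodule K V) : Prop := ∀ g ∈ UU F W₀, ∀ w ∈ W, (g : V ≃ₗ[K] V) w ∈ W

/-- **fixed points in `W₀ᗮ`** -/
theorem fixed_le [FiniteDimensional K V] {W₀ W : Submodule K V} (hW₀ : F.TS W₀) (hfix : Fixed F W₀ W)
    (hle : W ≤ F.perp W₀) : W ≤ W₀ ∨ W₀ ≤ W := by
  by_contra hcon
  push Not at hcon
  obtain ⟨hn, hn'⟩ := hcon
  obtain ⟨w, hw, hw0⟩ := SetLike.not_le_iff_exists.1 hn
  apply hn'
  obtain ⟨b, hb, hwb⟩ : ∃ b ∈ F.perp W₀, F.B w b ≠ 0 := by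
    by_contra h
    push Not at h
    apply hw0
    rw [← F.perp_perp W₀]
    exact h
  intro c hc
  by_cases hc0 : c = 0
  · rw [hc0]; exact W.zero_mem
  obtain ⟨t, h1, h2⟩ := exists_t F hc0 (hW₀.sing hc) (hb c hc)
  obtain ⟨g, hg, hgv⟩ := exists_mem_UU F hW₀ hc hc0 hb h1 h2
  have h3 := hfix g hg w hw
  rw [hgv, hle hw c hc, zero_smul, add_zero, mul_zero, zero_sub] at h3
  have h4 := W.sub_mem h3 hw
  rw [add_sub_cancel_left] at h4
  have h5 : -(F.ε⁻¹ * F.B w b) ≠ 0 := neg_ne_zero.2 (mul_ne_zero (inv_ne_zero F.ε_ne) hwb)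
  have h6 := W.smul_mem (-(F.ε⁻¹ * F.B w b))⁻¹ h4
  rwa [smul_smul, inv_mul_cancel₀ h5, one_smul] at h6

/-- the condition for a unique fixed point -/
def NP (W₀ : Submodule K V) : Prop :=
  ∃ y ∈ F.perp W₀, ∃ t : K, t ≠ 0 ∧ F.σ t + F.B y y + t * F.ε = 0 ∧ F.Q y + F.T (F.σ t) = 0

theorem fixed_eq [FiniteDimensional K V] (h2 : (2 : K) ≠ 0) {k : ℕ} {W₀ W : Submodule K V} (hW₀ : W₀ ∈ F.Om k)
    (hW : W ∈ F.Om k) (hnp : NP F W₀) (hfix : Fixed F W₀ W) : W = W₀ := by
  have hle : W ≤ F.perp W₀ := by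
    by_contra hn
    obtain ⟨w, hw, hw0⟩ := SetLike.not_le_iff_exists.1 hn
    obtain ⟨c, hc, hwc⟩ : ∃ c ∈ W₀, F.B w c ≠ 0 := by
      by_contra h
      push Not at h
      exact hw0 h
    have hc0 : c ≠ 0 := by
      rintro rfl
      exact hwc (F.B_zero_right w)
    obtain ⟨y, hy, t, ht, h3, h4⟩ := hnp
    obtain ⟨g, hg, hgv⟩ := exists_mem_UU F hW₀.1 hc hc0 hy h3 h4
    have hy' : -y ∈ F.perp W₀ := Submodule.neg_mem _ hy
    have hQn : F.Q (-y) = F.Q y := by
      rw [← neg_one_smul K y, F.Q_smul, map_neg, map_one]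
      ring
    obtain ⟨g', hg', hgv'⟩ := exists_mem_UU F hW₀.1 hc hc0 hy' (t := t)
      (by rw [F.B_neg_left, F.B_neg_right, neg_neg]; exact h3) (by rw [hQn]; exact h4)
    have h5 := W.sub_mem (W.add_mem (hfix g hg w hw) (hfix g' hg' w hw)) (W.smul_mem 2 hw)
    rw [hgv, hgv', F.B_neg_right] at h5
    have h6 : w + F.B w c • y + (t * F.B w c - F.ε⁻¹ * F.B w y) • c +
        (w + F.B w c • -y + (t * F.B w c - F.ε⁻¹ * -F.B w y) • c) - (2 : K) • w = (2 * t * F.B w c) • c := by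
      module
    rw [h6] at h5
    have h7 : 2 * t * F.B w c ≠ 0 := mul_ne_zero (mul_ne_zero h2 ht) hwc
    have h8 := W.smul_mem (2 * t * F.B w c)⁻¹ h5
    rw [smul_smul, inv_mul_cancel₀ h7, one_smul] at h8
    exact hwc (hW.1.2 w hw c h8)
  rcases fixed_le F hW₀.1 hfix hle with h | h
  · exact Submodule.eq_of_le_of_finrank_eq h (by rw [hW.2, hW₀.2])
  · exact (Submodule.eq_of_le_of_finrank_eq h (by rw [hW.2, hW₀.2])).symm

/-- otherwise `W₀ᗮ = W₀` -/
theorem perp_eq [FiniteDimensional K V] {W₀ : Submodule K V} (hW₀ : F.TS W₀) (h0 : W₀ ≠ ⊥)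
    (hnp : ¬ NP F W₀) : F.perp W₀ = W₀ := by
  have hnp' : ∀ y ∈ F.perp W₀, ∀ t : K, F.σ t + F.B y y + t * F.ε = 0 → F.Q y + F.T (F.σ t) = 0 → t = 0 := by
    intro y hy t h1 h2
    by_contra ht
    exact hnp ⟨y, hy, t, ht, h1, h2⟩
  obtain ⟨c, hc, hc0⟩ := Submodule.exists_mem_ne_zero_of_ne_bot h0
  have hQ : ∀ y ∈ F.perp W₀, F.Q y = 0 := by
    intro y hy
    obtain ⟨t, h1, h2⟩ := exists_t F hc0 (hW₀.sing hc) (hy c hc)
    rw [hnp' y hy t h1 h2, map_zero, F.T_zero, add_zero] at h2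
    exact h2
  have hB : ∀ u ∈ F.perp W₀, ∀ v ∈ F.perp W₀, F.B u v = 0 := by
    intro u hu v hv
    by_contra hb
    have h1 : ∀ x : K, ∃ u' ∈ F.perp W₀, F.B u' v = x := fun x =>
      ⟨(x * (F.B u v)⁻¹) • u, Submodule.smul_mem _ _ hu, by rw [F.B_smul_left, mul_assoc, inv_mul_cancel₀ hb, mul_one]⟩
    obtain ⟨u', hu', h2⟩ := h1 1
    have h3 := hQ (u' + v) (Submodule.add_mem _ hu' hv)
    have h4 := F.alt _ h3
    rw [F.Q_add, hQ u' hu', hQ v hv, h2, zero_add, zero_add] at h3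
    rw [F.B_add_left, F.B_add_right, F.B_add_right, F.alt _ (hQ u' hu'), F.alt _ (hQ v hv), F.B_symm v u', h2, map_one] at h4
    refine one_ne_zero (hnp' 0 (Submodule.zero_mem _) 1 ?_ ?_)
    · rw [map_one, F.B_zero_left]
      linear_combination h4
    · rw [map_one, F.Q_zero, h3, add_zero]
  apply le_antisymm
  · conv_rhs => rw [← F.perp_perp W₀]
    intro u hu v hv
    exact hB u hu v hv
  · exact hW₀.le_perp

theorem map_le_iff_fixed {W₀ W : Submodule K V} [FiniteDimensional K V] :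
    (∀ g : UU F W₀, W.map (F.iso.subtype g : V →ₗ[K] V) = W) ↔ Fixed F W₀ W := by
  constructor
  · intro h g hg w hw
    rw [← h ⟨g, hg⟩]
    exact ⟨w, hw, rfl⟩
  · intro h g
    exact map_eq_of_le F.iso.subtype fun w hw => h g.1 g.2 w hw

theorem card_modEq [FiniteDimensional K V] [Finite V] {p : ℕ} [hp : Fact p.Prime] [CharP K p] (k : ℕ)
    (W₀ : Submodule K V) : Nat.card (F.Om k) ≡ {W ∈ F.Om k | Fixed F W₀ W}.ncard [MOD p] := by
  let _ := subAct F.iso.subtype (F.Om k) F.Om_map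
  have h := (isPGroup_UU F W₀ (p := p)).card_modEq_card_fixedPoints (F.Om k)
  have e : Nat.card (MulAction.fixedPoints (UU F W₀) (F.Om k)) = {W ∈ F.Om k | Fixed F W₀ W}.ncard := by
    rw [Nat.card_coe_set_eq, ← Set.ncard_image_of_injective _ Subtype.val_injective]
    congr 1
    ext W
    constructor
    · rintro ⟨x, hx, rfl⟩
      exact ⟨x.2, (map_le_iff_fixed F).1 fun g => congrArg Subtype.val (hx g)⟩
    · rintro ⟨hW, h⟩
      exact ⟨⟨W, hW⟩, fun g => Subtype.ext ((map_le_iff_fixed F).2 h g), rfl⟩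
  rwa [e] at h

theorem finrank_sup_span [FiniteDimensional K V] {D : Submodule K V} {x : V} (hx : x ∉ D) :
    finrank K ↥(D ⊔ Submodule.span K {x}) = finrank K D + 1 := by
  have hx0 : x ≠ 0 := by
    rintro rfl
    exact hx D.zero_mem
  have h := Submodule.finrank_sup_add_finrank_inf_eq D (Submodule.span K {x})
  have h1 : D ⊓ Submodule.span K {x} = ⊥ := by
    rw [← disjoint_iff, Submodule.disjoint_span_singleton' hx0]
    exact hx
  rw [h1, finrank_bot, add_zero, finrank_span_singleton hx0] at h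
  exact h

theorem fixed_of_le {D W : Submodule K V} (h : D ≤ W) (h' : W ≤ F.perp D) : Fixed F D W := by
  intro g hg w hw
  have := W.add_mem (h (hg.2 w (h' hw))) hw
  rwa [sub_add_cancel] at this

/-- **exactly two fixed points** -/
theorem exists_two [FiniteDimensional K V] {k : ℕ} {W₀ : Submodule K V} (hW₀ : W₀ ∈ F.Om k) (h0 : W₀ ≠ ⊥)
    (hnp : ¬ NP F W₀) : ∃ D W₂ : Submodule K V, W₀ ≠ W₂ ∧ {W ∈ F.Om k | Fixed F D W} = {W₀, W₂} := by
  have hp := perp_eq F hW₀.1 h0 hnp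
  obtain ⟨e, he, he0⟩ := Submodule.exists_mem_ne_zero_of_ne_bot h0
  obtain ⟨z, hz⟩ := exists_ne_B F he0
  have hes := hW₀.1.sing he
  obtain ⟨f, -, hf, hef⟩ := exists_partner F hes (X := ⊤) Submodule.mem_top Submodule.mem_top hz
  have hfe : F.B f e = F.ε := by rw [F.B_symm, hef, map_one, mul_one]
  obtain ⟨D, hDW, hDf, hdec⟩ : ∃ D : Submodule K V, D ≤ W₀ ∧ (∀ w ∈ D, F.B w f = 0) ∧
      ∀ w ∈ W₀, w - F.B w f • e ∈ D :=
    ⟨W₀ ⊓ LinearMap.ker (F.lf f), inf_le_left, fun w hw => hw.2, fun w hw =>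
      ⟨W₀.sub_mem hw (W₀.smul_mem _ he), by
        change F.B (w - F.B w f • e) f = 0
        rw [F.B_sub_left, F.B_smul_left, hef, mul_one, sub_self]⟩⟩
  have hD := hW₀.1.mono hDW
  have heD : e ∉ D := fun h => one_ne_zero (hef.symm.trans (hDf e h))
  have hfW₀ : f ∉ W₀ := fun h => F.ε_ne (hfe.symm.trans (hW₀.1.2 f h e he))
  have hfD : f ∉ D := fun h => hfW₀ (hDW h)
  have hW₀e : W₀ = D ⊔ Submodule.span K {e} := by
    apply le_antisymm
    · intro w hw
      have := Submodule.add_mem_sup (hdec w hw) (Submodule.smul_mem _ (F.B w f) (Submodule.mem_span_singleton_self e))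
      rwa [sub_add_cancel] at this
    · exact sup_le hDW ((Submodule.span_singleton_le_iff_mem _ _).2 he)
  have hk : k = finrank K D + 1 := by
    rw [← hW₀.2]
    conv_lhs => rw [hW₀e]
    exact finrank_sup_span heD
  have hperp : ∀ v ∈ F.perp D, v - (F.B v e * F.ε⁻¹) • f ∈ W₀ := by
    intro v hv
    rw [← hp]
    intro w hw
    have h1 := hdec w hw
    have h2 : F.B (v - (F.B v e * F.ε⁻¹) • f) e = 0 := by
      rw [F.B_sub_left, F.B_smul_left, hfe, inv_mul_cancel_right₀ F.ε_ne, sub_self]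
    have h3 : F.B (v - (F.B v e * F.ε⁻¹) • f) (w - F.B w f • e) = 0 := by
      rw [F.B_sub_left, F.B_smul_left, hv _ h1, F.B_eq_zero (hDf _ h1), mul_zero, sub_zero]
    rw [F.B_sub_right, F.B_smul_right, h2, mul_zero, sub_zero] at h3
    exact h3
  have hPD : F.perp D = W₀ ⊔ Submodule.span K {f} := by
    apply le_antisymm
    · intro v hv
      have := Submodule.add_mem_sup (hperp v hv)
        (Submodule.smul_mem _ (F.B v e * F.ε⁻¹) (Submodule.mem_span_singleton_self f))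
      rwa [sub_add_cancel] at this
    · refine sup_le (hW₀.1.le_perp.trans (F.perp_anti hDW)) ((Submodule.span_singleton_le_iff_mem _ _).2 ?_)
      intro w hw
      exact F.B_eq_zero (hDf w hw)
  have hkP : finrank K (F.perp D) = k + 1 := by
    rw [hPD, finrank_sup_span hfW₀, hW₀.2]
  have hfP : f ∈ F.perp D := fun w hw => F.B_eq_zero (hDf w hw)
  have hW₂ : D ⊔ Submodule.span K {f} ∈ F.Om k := by
    refine ⟨F.TS_sup hD (F.TS_span_singleton hf) ?_, by rw [finrank_sup_span hfD, hk]⟩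
    intro w hw x hx
    obtain ⟨a, rfl⟩ := Submodule.mem_span_singleton.1 hx
    rw [F.B_smul_right, hDf w hw, mul_zero]
  refine ⟨D, D ⊔ Submodule.span K {f}, ?_, ?_⟩
  · intro h
    apply hfW₀
    rw [h]
    exact Submodule.mem_sup_right (Submodule.mem_span_singleton_self f)
  ext W
  constructor
  · rintro ⟨hW, hfix⟩
    have hle : W ≤ F.perp D := by
      by_contra hn
      obtain ⟨w, hw, hw0⟩ := SetLike.not_le_iff_exists.1 hn
      obtain ⟨c, hc, hwc⟩ : ∃ c ∈ D, F.B w c ≠ 0 := by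
        by_contra h
        push Not at h
        exact hw0 h
      have hc0 : c ≠ 0 := by
        rintro rfl
        exact hwc (F.B_zero_right w)
      have h1 : F.perp D ≤ W ⊔ Submodule.span K {c} := by
        intro y hy
        obtain ⟨t, h1, h2⟩ := exists_t F hc0 (hD.sing hc) (hy c hc)
        obtain ⟨g, hg, hgv⟩ := exists_mem_UU F hD hc hc0 hy h1 h2
        have h3 := W.sub_mem (hfix g hg w hw) hw
        rw [hgv, add_assoc, add_sub_cancel_left] at h3
        have h4 := (W ⊔ Submodule.span K {c}).sub_mem (Submodule.mem_sup_left h3)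
          (Submodule.mem_sup_right (Submodule.smul_mem _ (t * F.B w c - F.ε⁻¹ * F.B w y)
            (Submodule.mem_span_singleton_self c)))
        rw [add_sub_cancel_right] at h4
        have h5 := Submodule.smul_mem _ (F.B w c)⁻¹ h4
        rwa [smul_smul, inv_mul_cancel₀ hwc, one_smul] at h5
      have h2 : finrank K ↥(W ⊔ Submodule.span K {c}) ≤ finrank K (F.perp D) := by
        have h3 := Submodule.finrank_add_le_finrank_add_finrank W (Submodule.span K {c})
        rw [finrank_span_singleton hc0, hW.2] at h3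
        rw [hkP]
        exact h3
      have h3 := Submodule.eq_of_le_of_finrank_le h1 h2
      exact hn (h3 ▸ le_sup_left)
    have hDW' : D ≤ W := by
      rcases fixed_le F hD hfix hle with h | h
      · have := Submodule.finrank_mono h
        rw [hW.2, hk] at this
        omega
      · exact h
    obtain ⟨x, hx, hxD⟩ : ∃ x ∈ W, x ∉ D := by
      apply SetLike.not_le_iff_exists.1
      intro h
      have := Submodule.finrank_mono h
      rw [hW.2, hk] at this
      omega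
    obtain ⟨a, ha⟩ : ∃ a, a = F.B x e * F.ε⁻¹ := ⟨_, rfl⟩
    have h1 := hperp x (hle hx)
    rw [← ha] at h1
    obtain ⟨b, hb⟩ : ∃ b, b = F.B (x - a • f) f := ⟨_, rfl⟩
    have h2 := hdec _ h1
    rw [← hb] at h2
    have h3 : b • e + a • f ∈ W := by
      have := W.sub_mem hx (hDW' h2)
      have e1 : x - (x - a • f - b • e) = b • e + a • f := by abel
      rwa [e1] at this
    have h4 : F.T (b * F.σ a) = 0 := by
      have := hW.1.1 _ h3
      rw [F.Q_add, F.Q_smul, F.Q_smul, hes.1, hf.1, F.B_smul_left, F.B_smul_right, hef] at this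
      rw [mul_one] at this
      rw [← this]
      ring
    have h5 : b * F.σ a + a * F.σ b * F.ε = 0 := by
      have := hW.1.2 _ h3 _ h3
      rw [F.B_add_left, F.B_add_right, F.B_add_right, F.B_smul_left, F.B_smul_left, F.B_smul_left, F.B_smul_left,
        F.B_smul_right, F.B_smul_right, F.B_smul_right, F.B_smul_right, hes.2, hf.2, hef, hfe] at this
      rw [← this]
      ring
    have h6 : a * F.σ b = 0 := by
      by_contra hn
      refine hnp ⟨0, Submodule.zero_mem _, a * F.σ b, hn, ?_, ?_⟩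
      · rw [F.B_zero_left, map_mul, F.σσ, add_zero, mul_comm (F.σ a)]
        exact h5
      · rw [F.Q_zero, map_mul, F.σσ, mul_comm (F.σ a), h4, add_zero]
    rcases mul_eq_zero.1 h6 with h | h
    · left
      subst h
      rw [zero_smul, add_zero] at h3
      have hb0 : b ≠ 0 := by
        rintro rfl
        rw [zero_smul, sub_zero, zero_smul, sub_zero] at h2
        exact hxD h2
      have h7 := W.smul_mem b⁻¹ h3
      rw [smul_smul, inv_mul_cancel₀ hb0, one_smul] at h7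
      have h8 : W₀ ≤ W := by
        rw [hW₀e]
        exact sup_le hDW' ((Submodule.span_singleton_le_iff_mem _ _).2 h7)
      exact (Submodule.eq_of_le_of_finrank_eq h8 (by rw [hW.2, hW₀.2])).symm
    · right
      have hb0 : b = 0 := by
        rw [← F.σσ b, h, map_zero]
      rw [hb0, zero_smul, zero_add] at h3
      have ha0 : a ≠ 0 := by
        intro ha0
        rw [hb0, ha0, zero_smul, sub_zero, zero_smul, sub_zero] at h2
        exact hxD h2
      have h7 := W.smul_mem a⁻¹ h3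
      rw [smul_smul, inv_mul_cancel₀ ha0, one_smul] at h7
      have h8 : D ⊔ Submodule.span K {f} ≤ W := sup_le hDW' ((Submodule.span_singleton_le_iff_mem _ _).2 h7)
      exact (Submodule.eq_of_le_of_finrank_eq h8 (by rw [hW.2, hW₂.2])).symm
  · rintro (rfl | rfl)
    · exact ⟨hW₀, fixed_of_le F hDW (hW₀.1.le_perp.trans (F.perp_anti hDW))⟩
    · exact ⟨hW₂, fixed_of_le F le_sup_left (sup_le hD.le_perp ((Submodule.span_singleton_le_iff_mem _ _).2 hfP))⟩

/-- **the number of totally singular `k`-subspaces is prime to `p`** (task 4724) -/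
theorem omk [FiniteDimensional K V] [Finite V] {p : ℕ} [hp : Fact p.Prime] [CharP K p] (hp2 : p ≠ 2) (k : ℕ)
    (hne : (F.Om k).Nonempty) : ¬ p ∣ Nat.card (F.Om k) := by
  have h2 : (2 : K) ≠ 0 := by
    intro h
    have h3 : ((2 : ℕ) : K) = 0 := by exact_mod_cast h
    rw [CharP.cast_eq_zero_iff K p] at h3
    exact hp2 ((Nat.prime_dvd_prime_iff_eq hp.out Nat.prime_two).1 h3)
  obtain ⟨W₀, hW₀⟩ := hne
  intro hd
  by_cases h0 : W₀ = ⊥
  · have e : F.Om k = {W₀} := by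
      ext W
      constructor
      · intro hW
        have h3 : finrank K W = 0 := by rw [hW.2, ← hW₀.2, h0, finrank_bot]
        rw [Set.mem_singleton_iff, h0]
        exact Submodule.finrank_eq_zero.1 h3
      · rintro rfl
        exact hW₀
    rw [e, Nat.card_coe_set_eq, Set.ncard_singleton] at hd
    exact hp.out.one_lt.ne' (Nat.dvd_one.1 hd)
  by_cases hnp : NP F W₀
  · have h := card_modEq F k W₀ (p := p)
    have e : {W ∈ F.Om k | Fixed F W₀ W} = {W₀} := by
      ext W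
      constructor
      · rintro ⟨hW, hfix⟩
        exact fixed_eq F h2 hW₀ hW hnp hfix
      · rintro rfl
        exact ⟨hW₀, fixed_of_le F le_rfl hW₀.1.le_perp⟩
    rw [e, Set.ncard_singleton] at h
    exact hp.out.one_lt.ne' (Nat.dvd_one.1 ((h.dvd_iff (dvd_refl p)).1 hd))
  · obtain ⟨D, W₂, h3, e⟩ := exists_two F hW₀ h0 hnp
    have h := card_modEq F k D (p := p)
    rw [e, Set.ncard_pair h3] at h
    exact hp2 ((Nat.prime_dvd_prime_iff_eq hp.out Nat.prime_two).1 ((h.dvd_iff (dvd_refl p)).1 hd))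

end Cfsg.Agent.H898.OC
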