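import Cfsg.Agent.H699.CusGBase
import Cfsg.Agent.H328.Gow.CusRat
import Cfsg.Agent.H993.OC.Field
import Cfsg.Agent.H846.RatB.Gal
import Cfsg.Agent.H145.BR.Defs

/-!
# Cuspidal characters which are not self-dual and fixed by the field automorphisms of `p`-power order (S4891, helper898)

`K` finite of odd characteristic `p`, `|K| = q₀ ^ p ^ j`, `q₀ = p ^ f₀`, `p ∤ f₀`.
`exists_cns` : `ψ_θ`, `θ` of order `e` on `Lˣ`, `[L : K] = k`, `e ∣ q₀ ^ k - 1`; the cases
`exists_cns_A` (`q₀ ≥ 5`, `k = 2`, `e = (q₀² - 1) / 2`), `exists_cns_B` (`q₀ = 3`, `k = 4`, `e = 20`),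
`exists_cns_C` (`q₀ = 3`, `k = 2`, `e = 8`).
-/

set_option autoImplicit false

open scoped ComplexConjugate
open Cfsg

namespace Cfsg.Agent.H898.OC

open Cfsg.Agent.Characters Cfsg.Agent.H53.HC Cfsg.Agent.H477.HC Cfsg.Agent.H139.Cusp Cfsg.Agent.H576.Ext
  Cfsg.Agent.H328.Gow Cfsg.Agent.H699.CusG Module
open Cfsg.Agent.H145.BR (PRat)

universe u v

/-- the datum: a cuspidal irreducible character which is not self-dual -/
structure CNs (p : ℕ) (K : Type u) [Field K] (k : ℕ) (c : GL (Fin k) K → ℂ) : Prop where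
  irr : IsIrrCharacter _ c
  cusp : IsCusp c
  dual : c ∘ invT k ≠ c
  rat : PRat p c
  fix : ∀ τ : K ≃+* K, ∃ m : ℕ, ¬ p ∣ m ∧ fmap ((τ ^ m : K ≃+* K) : K →+* K) c = c
  deg : ∃ d : ℕ, c 1 = d ∧ ¬ p ∣ d ∧ 1 < d

/-- forms with trivial `σ` -/
theorem CNs.iota_ne {p : ℕ} {K : Type u} [Field K] {k : ℕ} {c : GL (Fin k) K → ℂ} (h : CNs p K k c) {V : Type v}
    [AddCommGroup V] [Module K V] (F : CForm K V) (hσ : ∀ a, F.σ a = a) : c ∘ F.iota k ≠ c := by
  intro h1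
  apply h.dual
  funext A
  have h2 : F.iota k A = invT k A := by
    ext i l
    exact hσ _
  rw [Function.comp_apply, ← h2]
  exact congrFun h1 A

theorem scal_of_neg {K : Type u} [Field K] {k : ℕ} {c : GL (Fin k) K → ℂ}
    (h : c (Matrix.GeneralLinearGroup.scalar (Fin k) (-1)) = c 1) (z : Kˣ) (hz : z ^ 2 = 1) :
    c (Matrix.GeneralLinearGroup.scalar (Fin k) z) = c 1 := by
  have h1 : (z : K) = 1 ∨ (z : K) = -1 := by
    have h2 : (z : K) ^ 2 = 1 := by rw [← Units.val_pow_eq_pow_val, hz, Units.val_one]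
    exact sq_eq_one_iff.1 h2
  rcases h1 with h1 | h1
  · rw [Units.ext (show (z : K) = ((1 : Kˣ) : K) by rw [h1, Units.val_one]), map_one]
  · rw [Units.ext (show (z : K) = ((-1 : Kˣ) : K) by rw [h1, Units.val_neg, Units.val_one]), h]

/-- exponents modulo `k` -/
theorem pow_modEq {Q k e a b : ℕ} (hQ : 0 < Q) (he : e ∣ Q ^ k - 1) (h : a ≡ b [MOD k]) : Q ^ a ≡ Q ^ b [MOD e] := by
  have h1 : Q ^ k ≡ 1 [MOD e] := ((Nat.modEq_iff_dvd' (Nat.one_le_pow _ _ hQ)).2 he).symm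
  have key : ∀ a b : ℕ, a ≤ b → a ≡ b [MOD k] → Q ^ a ≡ Q ^ b [MOD e] := by
    intro a b hab h
    obtain ⟨t, ht⟩ := (Nat.modEq_iff_dvd' hab).1 h
    have hb : b = a + k * t := by omega
    rw [hb, pow_add, pow_mul]
    have h2 := (h1.pow t).mul_left (Q ^ a)
    rw [one_pow, mul_one] at h2
    exact h2.symm
  rcases le_total a b with hab | hab
  · exact key a b hab h
  · exact (key b a hab h.symm).symm

variable {K : Type u} [Field K] [Finite K]

theorem psi_congr {L : Type v} [Field L] [Finite L] [Algebra K L] {k : ℕ} (hL : Module.finrank K L = k) {θ θ' : L →*₀ ℂ}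
    (hreg : Regular K k θ) {i : ℕ} (hi : i < k) (h : ∀ x : L, θ' x = θ (x ^ Nat.card K ^ i)) :
    psi (n := k) (F := K) L θ' = psi L θ := by
  have h1 := (cusp_eq_iff (V := Fin k → K) θ θ' (by rw [Module.finrank_fin_fun, hL]) (by rw [hL]; exact hreg)).2
    ⟨i, by rw [hL]; exact hi, h⟩
  funext A
  exact (h1 (Matrix.GeneralLinearGroup.toLin A)).symm

/-- the values lie in the field of the `|Lˣ|`-th roots of unity -/
theorem pRat_psi {L : Type v} [Field L] [Finite L] [Algebra K L] {k p : ℕ} (hp : ¬ p ∣ Nat.card Lˣ) {θ : L →*₀ ℂ}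
    (hirr : IsIrrCharacter _ (psi (n := k) (F := K) L θ)) : PRat p (psi (n := k) (F := K) L θ) := by
  have hfin : Finite (GL (Fin k) K) := inferInstance
  refine (H846.RatB.pRatC_iff (p := p) fun g => H846.RatB.integral_irr (Core.isIrr_isCharacter hirr) g).2
    ⟨Nat.card Lˣ, hp, fun σ hσ A => ?_⟩
  rw [psi_map]
  congr 1
  ext x
  change σ (θ x) = θ x
  by_cases hx : x = 0
  · rw [hx, map_zero, map_zero]
  · refine H700.PRat.fix_adjoin σ hσ (H846.RatB.root_mem Nat.card_pos.ne' ?_)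
    rw [← map_pow]
    have h3 : (Units.mk0 x hx) ^ Nat.card Lˣ = 1 := pow_card_eq_one'
    have h4 : x ^ Nat.card Lˣ = 1 := congrArg Units.val h3
    rw [h4, map_one]

variable {p : ℕ} [hp : Fact p.Prime] [CharP K p]

theorem not_dvd_pow_sub_one {q i : ℕ} (hi : p ∣ q) (hq : 0 < q) (h0 : 0 < i) : ¬ p ∣ q ^ i - 1 := by
  intro h
  have h1 : p ∣ q ^ i := hi.trans (dvd_pow_self q h0.ne')
  have h2 : 0 < q ^ i := pow_pos hq i
  have h3 : p ∣ q ^ i - (q ^ i - 1) := Nat.dvd_sub h1 h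
  have h4 : q ^ i - (q ^ i - 1) = 1 := by omega
  rw [h4] at h3
  exact hp.out.one_lt.ne' (Nat.dvd_one.1 h3)

/-- **the construction** -/
theorem exists_cns (hp2 : p ≠ 2) {f₀ j : ℕ} (hf : ¬ p ∣ f₀) (hK : Nat.card K = p ^ (f₀ * p ^ j)) {k e : ℕ} (hk : 2 ≤ k)
    (hpk : Nat.Coprime p k) (he : e ∣ (p ^ f₀) ^ k - 1) (hreg : ∀ i, 0 < i → i < k → ¬ e ∣ (p ^ f₀) ^ i - 1)
    (hdual : ∀ i, i < k → ¬ e ∣ (p ^ f₀) ^ i + 1) :
    ∃ c : GL (Fin k) K → ℂ, CNs p K k c ∧
      (2 * e ∣ (p ^ f₀) ^ k - 1 → c (Matrix.GeneralLinearGroup.scalar (Fin k) (-1)) = c 1) := by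
  classical
  have hpp : p.Prime := hp.out
  obtain ⟨L, _, _, _, hL⟩ := exists_L K k (by omega)
  obtain ⟨θ, hθ⟩ := exists_theta L
  have hcardL : Nat.card Lˣ = Nat.card K ^ k - 1 := by
    rw [Nat.card_units, Module.natCard_eq_pow_finrank (K := K), hL]
  obtain ⟨Q, hQ⟩ : ∃ Q, Q = p ^ f₀ := ⟨_, rfl⟩
  have hQ0 : 0 < Q := by rw [hQ]; exact pow_pos hpp.pos _
  have hKQ : Nat.card K = Q ^ p ^ j := by rw [hK, hQ, pow_mul]
  rw [← hQ] at he hreg hdual ⊢
  have hKpos : 0 < Nat.card K := Nat.card_pos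
  -- `|K| ^ i` is a power of `q₀`
  have hco : Nat.Coprime (p ^ j) k := Nat.Coprime.pow_left j hpk
  have hKi : ∀ i, Nat.card K ^ i ≡ Q ^ (p ^ j * i % k) [MOD e] := by
    intro i
    rw [hKQ, ← pow_mul]
    exact pow_modEq hQ0 he (Nat.mod_modEq _ _).symm
  have hKe : e ∣ Nat.card K ^ k - 1 := by
    rw [← Nat.modEq_iff_dvd' (Nat.one_le_pow _ _ hKpos)]
    have := hKi k
    rw [Nat.mul_mod_left, pow_zero] at this
    exact this.symm
  have hmod : ∀ i, 0 < i → i < k → 0 < p ^ j * i % k := by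
    intro i h0 hi
    rcases Nat.eq_zero_or_pos (p ^ j * i % k) with h | h
    · exfalso
      have h1 : k ∣ p ^ j * i := Nat.dvd_of_mod_eq_zero h
      have h2 : k ∣ i := hco.symm.dvd_of_dvd_mul_left h1
      exact absurd (Nat.le_of_dvd h0 h2) (by omega)
    · exact h
  have hreg' : ∀ i, 0 < i → i < k → ¬ e ∣ Nat.card K ^ i - 1 := by
    intro i h0 hi hd
    rw [← Nat.modEq_iff_dvd' (Nat.one_le_pow _ _ hKpos)] at hd
    refine hreg _ (hmod i h0 hi) (Nat.mod_lt _ (by omega)) ?_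
    rw [← Nat.modEq_iff_dvd' (Nat.one_le_pow _ _ hQ0)]
    exact hd.trans (hKi i)
  have hdual' : ∀ i, i < k → ¬ e ∣ Nat.card K ^ i + 1 := by
    intro i hi hd
    refine hdual (p ^ j * i % k) (Nat.mod_lt _ (by omega)) ?_
    rw [← Nat.modEq_zero_iff_dvd] at hd ⊢
    exact ((hKi i).add_right 1).symm.trans hd
  obtain ⟨a, ha⟩ := hKe
  have hNpos : 0 < Nat.card K ^ k - 1 := by
    rw [← hcardL]
    exact Nat.card_pos
  have ha0 : a ≠ 0 := by
    rintro rfl
    rw [mul_zero] at ha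
    omega
  have hR : Regular K k (powTheta θ a ha0) := (regular_powTheta_iff hθ ha0 hL).2 fun i h0 hi hd => by
    rw [ha, mul_comm e a] at hd
    exact hreg' i h0 hi (Nat.dvd_of_mul_dvd_mul_left (Nat.pos_of_ne_zero ha0) hd)
  have hirr : IsIrrCharacter _ (psi (n := k) (F := K) L (powTheta θ a ha0)) := psi_isIrr _ hL hR
  have hpK : p ∣ Nat.card K := by
    rw [hK]
    refine dvd_pow_self p (Nat.mul_ne_zero (fun h => ?_) (pow_ne_zero _ hpp.ne_zero))
    exact hf (by rw [h]; exact dvd_zero p)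
  refine ⟨psi L (powTheta θ a ha0), ⟨hirr, psi_isCusp L _, ?_, ?_, ?_, ?_⟩, ?_⟩
  · -- the dual
    intro h
    have h0 : psi (n := k) (F := K) L (powTheta θ a ha0) = psi L (conjTheta (powTheta θ a ha0)) := by
      rw [← dualc_psi_id hL]
      exact h.symm
    have h1 : ∀ g : ((Fin k → K) →ₗ[K] (Fin k → K))ˣ, cusp L (powTheta θ a ha0) (g : (Fin k → K) →ₗ[K] (Fin k → K)) =
        cusp L (conjTheta (powTheta θ a ha0)) (g : (Fin k → K) →ₗ[K] (Fin k → K)) := by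
      intro g
      have h5 : Matrix.GeneralLinearGroup.toLin (Matrix.GeneralLinearGroup.toLin.symm g) = g := MulEquiv.apply_symm_apply _ g
      have h6 := congrFun h0 (Matrix.GeneralLinearGroup.toLin.symm g)
      rw [← h5]
      exact h6
    obtain ⟨i, hi, h2⟩ := (cusp_eq_iff (V := Fin k → K) (powTheta θ a ha0) (conjTheta (powTheta θ a ha0))
      (by rw [Module.finrank_fin_fun, hL]) (by rw [hL]; exact hR)).1 h1
    rw [hL] at hi
    have h3 := (conj_powTheta_eq_iff hθ ha0 ha0 (pow_ne_zero i hKpos.ne')).1 h2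
    rw [hcardL, ha] at h3
    refine hdual' i hi (Nat.dvd_of_mul_dvd_mul_left (Nat.pos_of_ne_zero ha0) ?_)
    rw [mul_comm a e]
    refine h3.trans (dvd_of_eq ?_)
    ring
  · -- rationality
    refine pRat_psi ?_ hirr
    rw [hcardL]
    exact not_dvd_pow_sub_one hpK hKpos (by omega)
  · -- field automorphisms
    intro τ
    refine ⟨f₀, hf, ?_⟩
    obtain ⟨i, hi⟩ := H993.OC.frob_pow (p := p) f₀ τ
    rw [fmap_psi hL (p := p) (j := f₀ * i) (τ := ((τ ^ f₀ : K ≃+* K) : K →+* K)) hi]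
    -- `u p ^ j = 1` modulo `k`
    obtain ⟨u, hu⟩ : ∃ u : ℕ, p ^ j * u ≡ 1 [MOD k] := by
      obtain ⟨u, hu⟩ := Nat.exists_mul_mod_eq_one_of_coprime hco (by omega)
      exact ⟨u, by rw [Nat.ModEq, hu.2, Nat.mod_eq_of_lt (by omega)]⟩
    have h1 : (p ^ (f₀ * i)) ≡ Nat.card K ^ (u * i % k) [MOD e] := by
      rw [pow_mul, ← hQ, hKQ, ← pow_mul]
      refine pow_modEq hQ0 he ?_
      have h2 : p ^ j * (u * i % k) ≡ p ^ j * (u * i) [MOD k] := (Nat.mod_modEq _ _).mul_left _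
      refine (h2.trans ?_).symm
      rw [← mul_assoc]
      simpa using hu.mul_right i
    refine psi_congr hL hR (i := u * i % k) (Nat.mod_lt _ (by omega)) fun x => ?_
    have hb : a * p ^ (f₀ * i) ≠ 0 := Nat.mul_ne_zero ha0 (pow_ne_zero _ hpp.ne_zero)
    have h2 := (powTheta_eq_iff hθ ha0 hb (pow_ne_zero (u * i % k) hKpos.ne')).2 (by
      rw [hcardL, ha, mul_comm e a]
      exact h1.mul_left' a) x
    rw [← h2, powTheta_apply, powTheta_apply, powTheta_apply, ← pow_mul]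
  · -- the degree
    refine ⟨_, psi_one L _ (by omega), ?_, ?_⟩
    · rw [degP_eq_Ico, hpp.prime.dvd_finsetProd_iff]
      rintro ⟨i, hi, hd⟩
      rw [Finset.mem_Ico] at hi
      exact not_dvd_pow_sub_one hpK hKpos (by omega) hd
    · rw [degP_eq_Ico]
      have hp3 : 3 ≤ p := by
        have := hpp.two_le
        omega
      have hK3 : 3 ≤ Nat.card K := hp3.trans (Nat.le_of_dvd hKpos hpK)
      have h1 : Nat.card K ^ 1 - 1 ∣ ∏ i ∈ Finset.Ico 1 k, (Nat.card K ^ i - 1) :=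
        Finset.dvd_prod_of_mem _ (Finset.mem_Ico.2 ⟨le_rfl, by omega⟩)
      have h2 : 0 < ∏ i ∈ Finset.Ico 1 k, (Nat.card K ^ i - 1) := by
        refine Finset.prod_pos fun i hi => ?_
        rw [Finset.mem_Ico] at hi
        have : 1 < Nat.card K ^ i := Nat.one_lt_pow (by omega) (by omega)
        omega
      have h3 := Nat.le_of_dvd h2 h1
      rw [pow_one] at h3
      omega
  · -- the scalar `-1`
    intro h2
    have h3 : 2 * e ∣ Nat.card K ^ k - 1 := by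
      rw [hKQ, ← pow_mul, mul_comm (p ^ j) k, pow_mul]
      refine h2.trans ?_
      simpa using Nat.sub_dvd_pow_sub_pow (Q ^ k) 1 (p ^ j)
    rw [ha, mul_comm 2 e] at h3
    have he0 : 0 < e := Nat.pos_of_ne_zero fun h => by
      rw [h, zero_mul] at ha
      omega
    obtain ⟨t, ht⟩ := Nat.dvd_of_mul_dvd_mul_left he0 h3
    have h4 := psi_scalar (powTheta θ a ha0) hL (-1 : Kˣ) 1
    rw [mul_one] at h4
    rw [h4, powTheta_eq_one ha0, one_mul]
    rw [Units.val_neg, Units.val_one, map_neg, map_one, ht, pow_mul, neg_one_sq, one_pow]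

/-- **(A)** `q₀ ≥ 5`, `k = 2`, `e = (q₀² - 1) / 2` -/
theorem exists_cns_A (hp2 : p ≠ 2) {f₀ j : ℕ} (hf : ¬ p ∣ f₀) (hK : Nat.card K = p ^ (f₀ * p ^ j)) (h5 : 5 ≤ p ^ f₀) :
    ∃ c : GL (Fin 2) K → ℂ, CNs p K 2 c ∧ c (Matrix.GeneralLinearGroup.scalar (Fin 2) (-1)) = c 1 := by
  have hodd : Odd (p ^ f₀) := (hp.out.odd_of_ne_two hp2).pow
  obtain ⟨m, hm⟩ := hodd
  have hm2 : 2 ≤ m := by omega
  have h1 : (p ^ f₀) ^ 2 - 1 = 2 * (2 * m * (m + 1)) := by
    rw [hm]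
    have : (2 * m + 1) ^ 2 = 2 * (2 * m * (m + 1)) + 1 := by ring
    omega
  obtain ⟨c, hc, hc'⟩ := exists_cns (K := K) hp2 hf hK (k := 2) (e := 2 * m * (m + 1)) le_rfl
    ((Nat.coprime_primes hp.out Nat.prime_two).2 hp2) (by rw [h1]; exact Dvd.intro_left 2 rfl)
    (fun i h0 hi hd => by
      have : i = 1 := by omega
      rw [this, pow_one, hm, Nat.add_sub_cancel] at hd
      have h2 := Nat.le_of_dvd (by omega) hd
      nlinarith)
    (fun i hi hd => by
      have : i = 0 ∨ i = 1 := by omega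
      rcases this with rfl | rfl
      · rw [pow_zero] at hd
        have h2 := Nat.le_of_dvd (by omega) hd
        nlinarith
      · rw [pow_one, hm] at hd
        have h2 := Nat.le_of_dvd (by omega) hd
        nlinarith)
  exact ⟨c, hc, hc' (by rw [h1])⟩

/-- **(B)** `q₀ = 3`, `k = 4`, `e = 20` -/
theorem exists_cns_B {f₀ j : ℕ} (hf : ¬ p ∣ f₀) (hK : Nat.card K = p ^ (f₀ * p ^ j)) (h3 : p ^ f₀ = 3) :
    ∃ c : GL (Fin 4) K → ℂ, CNs p K 4 c ∧ c (Matrix.GeneralLinearGroup.scalar (Fin 4) (-1)) = c 1 := by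
  have hp3 : p = 3 := by
    have h4 : p ∣ 3 := by
      rw [← h3]
      exact dvd_pow_self p (fun h => by rw [h] at hf; exact hf (dvd_zero p))
    exact (Nat.prime_dvd_prime_iff_eq hp.out Nat.prime_three).1 h4
  obtain ⟨c, hc, hc'⟩ := exists_cns (K := K) (by omega) hf hK (k := 4) (e := 20) (by norm_num)
    (by rw [hp3]; norm_num) (by rw [h3]; norm_num)
    (fun i h0 hi hd => by
      rw [h3] at hd
      interval_cases i <;> revert hd <;> decide)
    (fun i hi hd => by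
      rw [h3] at hd
      interval_cases i <;> revert hd <;> decide)
  exact ⟨c, hc, hc' (by rw [h3]; norm_num)⟩

/-- **(C)** `q₀ = 3`, `k = 2`, `e = 8` -/
theorem exists_cns_C {f₀ j : ℕ} (hf : ¬ p ∣ f₀) (hK : Nat.card K = p ^ (f₀ * p ^ j)) (h3 : p ^ f₀ = 3) :
    ∃ c : GL (Fin 2) K → ℂ, CNs p K 2 c := by
  have hp3 : p = 3 := by
    have h4 : p ∣ 3 := by
      rw [← h3]
      exact dvd_pow_self p (fun h => by rw [h] at hf; exact hf (dvd_zero p))
    exact (Nat.prime_dvd_prime_iff_eq hp.out Nat.prime_three).1 h4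
  obtain ⟨c, hc, -⟩ := exists_cns (K := K) (by omega) hf hK (k := 2) (e := 8) (by norm_num)
    (by rw [hp3]; norm_num) (by rw [h3]; norm_num)
    (fun i h0 hi hd => by
      have : i = 1 := by omega
      rw [h3, this] at hd
      revert hd
      decide)
    (fun i hi hd => by
      rw [h3] at hd
      interval_cases i <;> revert hd <;> decide)
  exact ⟨c, hc⟩

omit [CharP K p] in
/-- the order of a finite field of characteristic `p` -/
theorem exists_f₀ (K : Type u) [Field K] [Finite K] [CharP K p] :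
    ∃ f₀ j : ℕ, ¬ p ∣ f₀ ∧ Nat.card K = p ^ (f₀ * p ^ j) := by
  have := Fintype.ofFinite K
  obtain ⟨n, -, hn⟩ := FiniteField.card K p
  obtain ⟨j, f₀, h1, h2⟩ := Nat.exists_eq_pow_mul_and_not_dvd n.ne_zero p hp.out.one_lt.ne'
  exact ⟨f₀, j, h1, by rw [Nat.card_eq_fintype_card, hn, h2, mul_comm]⟩

/-- **the three cases** -/
theorem exists_cns_all (hp2 : p ≠ 2) (K : Type u) [Field K] [Finite K] [CharP K p] :
    (∃ c : GL (Fin 2) K → ℂ, CNs p K 2 c ∧ c (Matrix.GeneralLinearGroup.scalar (Fin 2) (-1)) = c 1) ∨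
      (p = 3 ∧ (∃ j, Nat.card K = 3 ^ 3 ^ j) ∧
        (∃ c : GL (Fin 4) K → ℂ, CNs p K 4 c ∧ c (Matrix.GeneralLinearGroup.scalar (Fin 4) (-1)) = c 1) ∧
        ∃ c : GL (Fin 2) K → ℂ, CNs p K 2 c) := by
  obtain ⟨f₀, j, hf, hK⟩ := exists_f₀ (p := p) K
  rcases Nat.lt_or_ge (p ^ f₀) 5 with h | h
  · right
    have hp3 : 3 ≤ p := by
      have := hp.out.two_le
      omega
    have hf0 : f₀ ≠ 0 := fun h0 => hf (by rw [h0]; exact dvd_zero p)
    have hodd : Odd (p ^ f₀) := (hp.out.odd_of_ne_two hp2).pow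
    have h1 : p ≤ p ^ f₀ := Nat.le_self_pow hf0 p
    have h2 : p ^ f₀ = 3 := by
      obtain ⟨m, hm⟩ := hodd
      omega
    have h3 : p = 3 := by omega
    refine ⟨h3, ⟨j, ?_⟩, exists_cns_B hf hK h2, exists_cns_C hf hK h2⟩
    rw [hK, pow_mul, h2, h3]
  · exact Or.inl (exists_cns_A hp2 hf hK h)

end Cfsg.Agent.H898.OC
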